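import Mathlib

/-!
# A criterion for a point stabilizer to be maximal, by sums of suborbit lengths
-/

set_option autoImplicit false

namespace CfsgLib.G2Four.Hall

open MulAction

theorem isCoatom_stabilizer {G X : Type*} [Group G] [Finite G] [MulAction G X] [DecidableEq X] (a : X)
    (O : Finset X) (hO : ∀ x, x ∈ O ↔ x ∈ orbit G a) (lab : X → ℕ) (h0 : ∀ x ∈ O, lab x = 0 ↔ x = a) (m : ℕ)
    (hm : ∀ x ∈ O, lab x ≤ m) (c : ℕ → ℕ) (hc : ∀ k ≤ m, (O.filter fun x => lab x = k).card = c k)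
    (htrans : ∀ x ∈ O, ∀ y ∈ O, lab x = lab y → ∃ g ∈ stabilizer G a, g • x = y) (hN : 1 < O.card)
    (hsum : ∀ T ∈ (Finset.range (m + 1)).powerset, 0 ∈ T → (∑ k ∈ T, c k) ∣ O.card →
      T = {0} ∨ (∑ k ∈ T, c k) = O.card) :
    IsCoatom (stabilizer G a) := by
  classical
  have hidx : (stabilizer G a).index = O.card := by
    rw [index_stabilizer, ← Set.ncard_coe_finset]
    congr 1
    ext x
    exact (hO x).symm
  refine ⟨fun h => ?_, fun K hK => ?_⟩
  · rw [h, Subgroup.index_top] at hidx; omega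
  set B := O.filter fun x => x ∈ orbit K a with hB
  have haO : a ∈ O := (hO a).2 (mem_orbit_self a)
  have haB : a ∈ B := Finset.mem_filter.2 ⟨haO, mem_orbit_self a⟩
  set T := B.image lab with hT
  have hBT : B = O.filter fun x => lab x ∈ T := by
    refine Finset.filter_congr fun x hx => ⟨fun h => Finset.mem_image_of_mem _ (Finset.mem_filter.2 ⟨hx, h⟩),
      fun h => ?_⟩
    obtain ⟨y, hy, hyx⟩ := Finset.mem_image.1 h
    obtain ⟨hyO, hyK⟩ := Finset.mem_filter.1 hy
    obtain ⟨g, hg, hgy⟩ := htrans y hyO x hx hyx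
    obtain ⟨k, hk⟩ := hyK
    refine ⟨(⟨g, hK.le hg⟩ : K) * k, ?_⟩
    change (((⟨g, hK.le hg⟩ : K) * k) • a : X) = x
    rw [mul_smul, show k • a = y from hk]
    exact hgy
  have hcard : B.card = ∑ k ∈ T, c k := by
    rw [Finset.card_eq_sum_card_fiberwise (fun x hx => Finset.mem_image_of_mem lab hx)]
    refine Finset.sum_congr rfl fun k hk => ?_
    obtain ⟨y, hy, rfl⟩ := Finset.mem_image.1 hk
    rw [← hc _ (hm y (Finset.mem_filter.1 hy).1), hBT, Finset.filter_filter]
    congr 1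
    refine Finset.filter_congr fun x _ => ⟨fun h => h.2, fun h => ⟨h ▸ hk, h⟩⟩
  have horb : orbit K a = (B : Set X) := by
    ext x
    refine ⟨fun h => Finset.mem_filter.2 ⟨(hO x).2 ?_, h⟩, fun h => (Finset.mem_filter.1 h).2⟩
    obtain ⟨k, rfl⟩ := h
    exact ⟨(k : G), rfl⟩
  have hrel : (stabilizer G a).relIndex K = B.card := by
    have e : stabilizer K a = (stabilizer G a).subgroupOf K := by
      ext g; simp [Subgroup.mem_subgroupOf, Subgroup.smul_def]
    rw [Subgroup.relIndex, ← e, index_stabilizer, horb, Set.ncard_coe_finset]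
  have hmul := Subgroup.relIndex_mul_index hK.le
  rw [hrel, hidx, hcard] at hmul
  have h0T : 0 ∈ T := Finset.mem_image.2 ⟨a, haB, (h0 a haO).2 rfl⟩
  have hTm : T ∈ (Finset.range (m + 1)).powerset := by
    refine Finset.mem_powerset.2 fun k hk => ?_
    obtain ⟨y, hy, rfl⟩ := Finset.mem_image.1 hk
    exact Finset.mem_range.2 (Nat.lt_succ_of_le (hm y (Finset.mem_filter.1 hy).1))
  rcases hsum T hTm h0T ⟨_, hmul.symm⟩ with h | h
  · exfalso
    refine not_le_of_gt hK fun g hg => ?_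
    have hgB : g • a ∈ B := by
      rw [← Finset.mem_coe, ← horb]; exact ⟨⟨g, hg⟩, rfl⟩
    have : lab (g • a) ∈ T := Finset.mem_image_of_mem _ hgB
    rw [h, Finset.mem_singleton] at this
    exact (h0 _ (Finset.mem_filter.1 hgB).1).1 this
  · rw [h] at hmul
    exact Subgroup.index_eq_one.1 (Nat.eq_of_mul_eq_mul_left (by omega : 0 < O.card) (by rw [hmul, mul_one]))

end CfsgLib.G2Four.Hall
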