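import Cfsg.Agent.G2Four.Hall.Tables

/-!
# The coset table of generator 4
-/

set_option autoImplicit false
set_option maxRecDepth 100000

namespace CfsgLib.G2Four.Hall

theorem edge4_0 : edgeBlk 4 0 = true := by decide +kernel
theorem edge4_1 : edgeBlk 4 1 = true := by decide +kernel
theorem edge4_2 : edgeBlk 4 2 = true := by decide +kernel
theorem edge4_3 : edgeBlk 4 3 = true := by decide +kernel
theorem edge4_4 : edgeBlk 4 4 = true := by decide +kernel
theorem edge4_5 : edgeBlk 4 5 = true := by decide +kernel
theorem edge4_6 : edgeBlk 4 6 = true := by decide +kernel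
theorem edge4_7 : edgeBlk 4 7 = true := by decide +kernel

end CfsgLib.G2Four.Hall
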