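import Cfsg.Agent.G2Four.Hall.Tables

/-!
# The coset table of generator 1
-/

set_option autoImplicit false
set_option maxRecDepth 100000

namespace CfsgLib.G2Four.Hall

theorem edge1_0 : edgeBlk 1 0 = true := by decide +kernel
theorem edge1_1 : edgeBlk 1 1 = true := by decide +kernel
theorem edge1_2 : edgeBlk 1 2 = true := by decide +kernel
theorem edge1_3 : edgeBlk 1 3 = true := by decide +kernel
theorem edge1_4 : edgeBlk 1 4 = true := by decide +kernel
theorem edge1_5 : edgeBlk 1 5 = true := by decide +kernel
theorem edge1_6 : edgeBlk 1 6 = true := by decide +kernel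
theorem edge1_7 : edgeBlk 1 7 = true := by decide +kernel

end CfsgLib.G2Four.Hall
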