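import Cfsg.Agent.G2Four.Hall.Tables

/-!
# The coset table of generator 3
-/

set_option autoImplicit false
set_option maxRecDepth 100000

namespace CfsgLib.G2Four.Hall

theorem edge3_0 : edgeBlk 3 0 = true := by decide +kernel
theorem edge3_1 : edgeBlk 3 1 = true := by decide +kernel
theorem edge3_2 : edgeBlk 3 2 = true := by decide +kernel
theorem edge3_3 : edgeBlk 3 3 = true := by decide +kernel
theorem edge3_4 : edgeBlk 3 4 = true := by decide +kernel
theorem edge3_5 : edgeBlk 3 5 = true := by decide +kernel
theorem edge3_6 : edgeBlk 3 6 = true := by decide +kernel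
theorem edge3_7 : edgeBlk 3 7 = true := by decide +kernel

end CfsgLib.G2Four.Hall
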