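import Cfsg.Agent.G2Four.Hall.EdgeZero
import Cfsg.Agent.G2Four.Hall.EdgeOne
import Cfsg.Agent.G2Four.Hall.EdgeTwo
import Cfsg.Agent.G2Four.Hall.EdgeThree
import Cfsg.Agent.G2Four.Hall.EdgeFour

/-!
# The coset table
-/

set_option autoImplicit false

namespace CfsgLib.G2Four.Hall

theorem edge_ok : ∀ g < 5, ∀ c < 8, edgeBlk g c = true
  | 0, _, 0, _ => edge0_0
  | 0, _, 1, _ => edge0_1
  | 0, _, 2, _ => edge0_2
  | 0, _, 3, _ => edge0_3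
  | 0, _, 4, _ => edge0_4
  | 0, _, 5, _ => edge0_5
  | 0, _, 6, _ => edge0_6
  | 0, _, 7, _ => edge0_7
  | 1, _, 0, _ => edge1_0
  | 1, _, 1, _ => edge1_1
  | 1, _, 2, _ => edge1_2
  | 1, _, 3, _ => edge1_3
  | 1, _, 4, _ => edge1_4
  | 1, _, 5, _ => edge1_5
  | 1, _, 6, _ => edge1_6
  | 1, _, 7, _ => edge1_7
  | 2, _, 0, _ => edge2_0
  | 2, _, 1, _ => edge2_1
  | 2, _, 2, _ => edge2_2
  | 2, _, 3, _ => edge2_3
  | 2, _, 4, _ => edge2_4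
  | 2, _, 5, _ => edge2_5
  | 2, _, 6, _ => edge2_6
  | 2, _, 7, _ => edge2_7
  | 3, _, 0, _ => edge3_0
  | 3, _, 1, _ => edge3_1
  | 3, _, 2, _ => edge3_2
  | 3, _, 3, _ => edge3_3
  | 3, _, 4, _ => edge3_4
  | 3, _, 5, _ => edge3_5
  | 3, _, 6, _ => edge3_6
  | 3, _, 7, _ => edge3_7
  | 4, _, 0, _ => edge4_0
  | 4, _, 1, _ => edge4_1
  | 4, _, 2, _ => edge4_2
  | 4, _, 3, _ => edge4_3
  | 4, _, 4, _ => edge4_4
  | 4, _, 5, _ => edge4_5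
  | 4, _, 6, _ => edge4_6
  | 4, _, 7, _ => edge4_7
  | _ + 5, h, _, _ => absurd h (by omega)
  | 0, _, _ + 8, h => absurd h (by omega)
  | 1, _, _ + 8, h => absurd h (by omega)
  | 2, _, _ + 8, h => absurd h (by omega)
  | 3, _, _ + 8, h => absurd h (by omega)
  | 4, _, _ + 8, h => absurd h (by omega)

end CfsgLib.G2Four.Hall
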