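import Cfsg.Agent.G2Four.Hall.Hom
import Cfsg.Agent.G2Four.Hall.EdgeAll
import Cfsg.Agent.G2Four.Hall.Coatom

/-!
# The action of `G₂(4)` on the 416 cosets of `J₂`
-/

set_option autoImplicit false
set_option maxRecDepth 100000

namespace CfsgLib.G2Four.Hall

open Cfsg.Lie CfsgLib.Chev Matrix MulAction

theorem closure_gen : Subgroup.closure (Set.range gen) = ⊤ := by
  set K := Subgroup.closure (Set.range gen)
  have hw : ∀ w : List ℕ, w.all (fun k => Nat.blt k 5) = true → ∃ x ∈ K, Mat x (gProd w) := by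
    intro w
    induction w using List.reverseRecOn with
    | nil => exact fun _ => ⟨1, one_mem _, Mat.one⟩
    | append_singleton w k ih =>
      intro h
      simp only [List.all_append, Bool.and_eq_true, List.all_cons, List.all_nil, Bool.and_true] at h
      obtain ⟨x, hx, hm⟩ := ih h.1
      set kk : Fin 5 := ⟨k, Nat.le_of_ble_eq_true h.2⟩
      refine ⟨x * gen kk, mul_mem hx (Subgroup.subset_closure ⟨kk, rfl⟩), ?_⟩
      rw [show gProd (w ++ [k]) = mm (gProd w) (gM k) by simp [gProd, List.foldl_append]]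
      exact hm.mul (gen_mat kk)
  have hroot : ∀ r : Fin 12, ∀ t : Q, sysG2.xg r.val t ∈ K := fun r t => by
    obtain ⟨x, hx, hm⟩ := hw _ (rootWords_ok r t).2
    have : sysG2.xg r.val t = x := by
      refine psi_injective (Units.ext ?_)
      rw [show (psi x : M6) = toM (gProd (rootWord r.val t)) from hm, ← (rootWords_ok r t).1,
        psi_eq (g := sysG2.xg r.val t) (isPair_gen r t)]
      rfl
    exact this ▸ hx
  rw [Subgroup.eq_top_iff']
  rintro ⟨g, hg⟩
  suffices g ∈ K.map (chevG2.group Q).subtype by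
    obtain ⟨x, hx, he⟩ := this
    exact (Subtype.ext he : x = ⟨g, hg⟩) ▸ hx
  refine (Subgroup.closure_le _).2 ?_ hg
  rintro y ⟨r, t, hy⟩
  refine ⟨sysG2.xg r.val t, hroot ⟨r.val, lt_of_lt_of_eq r.2 nroots_eq⟩ t, ?_⟩
  apply Units.ext
  show ((sysG2.xU r.val t : GL chevG2.Idx Q) : Matrix chevG2.Idx chevG2.Idx Q) = _
  rw [hy, Sys.coe_xU, ChevalleyDatum.x, dif_pos r.2]

theorem exists_rep (i : ℕ) (hi : i < 416) : ∃ g : LQ, Mat g (tM i) := by
  refine reach_all (P := fun i => ∃ g : LQ, Mat g (tM i)) ?_ tTree_ok ?_ hi rfl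
  · rintro j i k hc ⟨g, hm⟩
    simp only [tChk, Bool.and_eq_true] at hc
    obtain ⟨hk, he⟩ := hc
    refine ⟨gen ⟨k, Nat.le_of_ble_eq_true hk⟩ * g, ?_⟩
    rw [← eq_of_eqM he]
    exact (gen_mat _).mul hm
  · intro x hx
    rw [List.mem_singleton.1 hx]
    have h := gen_ok
    simp only [Bool.and_eq_true] at h
    exact ⟨1, (eq_of_eqM (show eqM (tM 0) one6 = true by simp [h])).symm ▸ Mat.one⟩

/-- A representative. -/
noncomputable def tG (i : Fin 416) : LQ := (exists_rep i.val i.2).choose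

theorem tG_mat (i : Fin 416) : Mat (tG i) (tM i.val) := (exists_rep i.val i.2).choose_spec

/-- The coset with number `i`. -/
noncomputable def cs (i : Fin 416) : LQ ⧸ HQ := (tG i : LQ ⧸ HQ)

theorem cs_zero : cs 0 = ((1 : LQ) : LQ ⧸ HQ) := by
  have h := gen_ok
  simp only [Bool.and_eq_true] at h
  rw [cs, show tG 0 = 1 from (tG_mat 0).eq Mat.one (by simp [h])]

theorem hProd_mem {w : List ℕ} (h : w.all (fun y => Nat.blt y 315) = true) : ∃ x ∈ HQ, Mat x (hProd w) := by
  induction w using List.reverseRecOn with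
  | nil => exact ⟨1, one_mem _, Mat.one⟩
  | append_singleton w k ih =>
    simp only [List.all_append, Bool.and_eq_true, List.all_cons, List.all_nil, Bool.and_true] at h
    obtain ⟨x, hx, hm⟩ := ih h.1
    set kk : Fin 315 := ⟨k, Nat.le_of_ble_eq_true h.2⟩
    refine ⟨x * sG kk, mul_mem hx (sG_mem kk), ?_⟩
    rw [show hProd (w ++ [k]) = mm (hProd w) (sM k) by simp [hProd, List.foldl_append]]
    exact hm.mul (sG_mat kk)

theorem gen_smul (g : Fin 5) (i : Fin 416) :
    ∃ h : sgm g.val i.val < 416, gen g • cs i = cs ⟨sgm g.val i.val, h⟩ := by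
  have hi := i.2
  have h := List.all_eq_true.1 (edge_ok g.val g.2 (i.val / 52) (by omega)) (i.val % 52)
    (List.mem_range.2 (Nat.mod_lt _ (by omega)))
  rw [Nat.div_add_mod] at h
  simp only [Bool.and_eq_true] at h
  obtain ⟨⟨h1, h2⟩, h3⟩ := h
  refine ⟨Nat.le_of_ble_eq_true h1, ?_⟩
  obtain ⟨x, hx, hm⟩ := hProd_mem h2
  have key : gen g * tG i = tG ⟨sgm g.val i.val, Nat.le_of_ble_eq_true h1⟩ * x :=
    ((gen_mat g).mul (tG_mat i)).eq ((tG_mat _).mul hm) h3
  rw [cs, MulAction.Quotient.smul_coe, smul_eq_mul, key, cs]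
  exact QuotientGroup.mk_mul_of_mem _ hx

theorem cs_surjective : Function.Surjective cs := by
  have key : ∀ x : LQ, ∀ i : Fin 416, ∃ j, x • cs i = cs j := fun x => by
    have hx : x ∈ Subgroup.closure (Set.range gen) := closure_gen ▸ Subgroup.mem_top x
    induction hx using Subgroup.closure_induction with
    | mem y hy =>
      obtain ⟨g, rfl⟩ := hy
      exact fun i => ⟨_, (gen_smul g i).choose_spec⟩
    | one => exact fun i => ⟨i, one_smul _ _⟩
    | mul a b _ _ ha hb =>
      intro i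
      obtain ⟨j, hj⟩ := hb i
      obtain ⟨k, hk⟩ := ha j
      exact ⟨k, by rw [mul_smul, hj, hk]⟩
    | inv a _ ha =>
      intro i
      have hpow : ∀ m : ℕ, ∀ i, ∃ j, a ^ m • cs i = cs j := by
        intro m
        induction m with
        | zero => exact fun i => ⟨i, by rw [pow_zero, one_smul]⟩
        | succ m ih =>
          intro i
          obtain ⟨j, hj⟩ := ha i
          obtain ⟨k, hk⟩ := ih j
          exact ⟨k, by rw [pow_succ, mul_smul, hj, hk]⟩
      obtain ⟨n, hn⟩ := (isOfFinOrder_of_finite a).mem_powers_iff_mem_zpowers.2 (inv_mem (Subgroup.mem_zpowers a))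
      rw [← show a ^ n = a⁻¹ from hn]
      exact hpow n i
  intro q
  obtain ⟨x, rfl⟩ := QuotientGroup.mk_surjective q
  obtain ⟨j, hj⟩ := key x 0
  refine ⟨j, ?_⟩
  rw [← hj, cs_zero, MulAction.Quotient.smul_coe, smul_eq_mul, mul_one]

/-- The numbering of the cosets. -/
noncomputable def eC : Fin 416 ≃ LQ ⧸ HQ :=
  Equiv.ofBijective cs (Nat.bijective_iff_surjective_and_card _ |>.2 ⟨cs_surjective, by
    rw [Nat.card_eq_fintype_card, Fintype.card_fin, ← Subgroup.index, index_HQ]⟩)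

theorem eC_apply (i : Fin 416) : eC i = cs i := rfl

/-- The image of a number under a word. -/
def apN (w : List ℕ) (x : ℕ) : ℕ := w.foldr (fun k a => sgm k a) x

theorem word_smul : ∀ (w : List ℕ), w.all (fun k => Nat.blt k 4) = true →
    ∃ x : ↥HQ, ∀ i : Fin 416, ∃ h : apN w i.val < 416, x • cs i = cs ⟨apN w i.val, h⟩
  | [], _ => ⟨1, fun i => ⟨i.2, one_smul _ _⟩⟩
  | k :: w, hw => by
    simp only [List.all_cons, Bool.and_eq_true] at hw
    obtain ⟨x, hx⟩ := word_smul w hw.2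
    set kk : Fin 4 := ⟨k, Nat.le_of_ble_eq_true hw.1⟩
    refine ⟨⟨gen kk.castSucc, gen_mem kk⟩ * x, fun i => ?_⟩
    obtain ⟨hlt, he1⟩ := hx i
    obtain ⟨hlt', he⟩ := gen_smul kk.castSucc ⟨apN w i.val, hlt⟩
    refine ⟨hlt', ?_⟩
    rw [mul_smul, he1]
    exact he

/-- The coset with a natural number. -/
noncomputable def csN (i : ℕ) : LQ ⧸ HQ := if h : i < 416 then cs ⟨i, h⟩ else cs 0

theorem csN_val (i : Fin 416) : csN i.val = cs i := by rw [csN, dif_pos i.2]

theorem word_smulN {w : List ℕ} (hw : w.all (fun k => Nat.blt k 4) = true) :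
    ∃ x : ↥HQ, ∀ i < 416, apN w i < 416 ∧ x • csN i = csN (apN w i) := by
  obtain ⟨x, hx⟩ := word_smul w hw
  refine ⟨x, fun i hi => ?_⟩
  obtain ⟨h, he⟩ := hx ⟨i, hi⟩
  refine ⟨h, ?_⟩
  rw [csN, csN, dif_pos hi, dif_pos h]
  exact he

/-- One step in a tree of an orbit of the subgroup. -/
def oChk (j i k : ℕ) : Bool := Nat.blt k 4 && Nat.beq (sgm k i) j

theorem orbit_tree {L : List (ℕ × ℕ × ℕ)} {p : ℕ → Bool} {r : ℕ} (hr : r < 416)
    (hok : (goB oChk L [r] && coversB p 416 L [r]) = true) {i : Fin 416} (hp : p i.val = true) :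
    ∃ x : ↥HQ, x • csN r = cs i := by
  have := reach_all (P := fun i => i < 416 ∧ ∃ x : ↥HQ, x • csN r = csN i) (fun j i k hc hi => ?_) hok
    (fun x hx => by rw [List.mem_singleton.1 hx]; exact ⟨hr, 1, one_smul _ _⟩) i.2 hp
  · rw [csN_val] at this; exact this.2
  · simp only [oChk, Bool.and_eq_true] at hc
    obtain ⟨hi', x, hx⟩ := hi
    obtain ⟨y, hy'⟩ := word_smulN (w := [k]) (by simp [hc.1])
    obtain ⟨h1, hy⟩ := hy' i hi'
    rw [show apN [k] i = j from Nat.eq_of_beq_eq_true hc.2] at h1 hy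
    exact ⟨h1, y * x, by rw [mul_smul, hx, hy]⟩

end CfsgLib.G2Four.Hall
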