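import Cfsg.Agent.G2Four.Hall.Tables

/-!
# The generators permute the involutions by the tables
-/

set_option autoImplicit false
set_option maxRecDepth 100000

namespace CfsgLib.G2Four.Hall

theorem conj0_0 : conjBlk 0 0 = true := by decide +kernel
theorem conj0_1 : conjBlk 0 1 = true := by decide +kernel
theorem conj0_2 : conjBlk 0 2 = true := by decide +kernel
theorem conj0_3 : conjBlk 0 3 = true := by decide +kernel
theorem conj0_4 : conjBlk 0 4 = true := by decide +kernel
theorem conj1_0 : conjBlk 1 0 = true := by decide +kernel
theorem conj1_1 : conjBlk 1 1 = true := by decide +kernel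
theorem conj1_2 : conjBlk 1 2 = true := by decide +kernel
theorem conj1_3 : conjBlk 1 3 = true := by decide +kernel
theorem conj1_4 : conjBlk 1 4 = true := by decide +kernel
theorem conj2_0 : conjBlk 2 0 = true := by decide +kernel
theorem conj2_1 : conjBlk 2 1 = true := by decide +kernel
theorem conj2_2 : conjBlk 2 2 = true := by decide +kernel
theorem conj2_3 : conjBlk 2 3 = true := by decide +kernel
theorem conj2_4 : conjBlk 2 4 = true := by decide +kernel
theorem conj3_0 : conjBlk 3 0 = true := by decide +kernel
theorem conj3_1 : conjBlk 3 1 = true := by decide +kernel
theorem conj3_2 : conjBlk 3 2 = true := by decide +kernel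
theorem conj3_3 : conjBlk 3 3 = true := by decide +kernel
theorem conj3_4 : conjBlk 3 4 = true := by decide +kernel

theorem conj_ok {k c : ℕ} (hk : k < 4) (hc : c < 5) : conjBlk k c = true := by
  interval_cases k <;> interval_cases c <;>
    first
      | exact conj0_0
      | exact conj0_1
      | exact conj0_2
      | exact conj0_3
      | exact conj0_4
      | exact conj1_0
      | exact conj1_1
      | exact conj1_2
      | exact conj1_3
      | exact conj1_4
      | exact conj2_0
      | exact conj2_1
      | exact conj2_2
      | exact conj2_3
      | exact conj2_4
      | exact conj3_0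
      | exact conj3_1
      | exact conj3_2
      | exact conj3_3
      | exact conj3_4

end CfsgLib.G2Four.Hall
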