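import Cfsg.Agent.G2Four.Hall.Action

/-!
# The action of `G₂(4)` on the cosets of `J₂` is extremely primitive
-/

set_option autoImplicit false
set_option maxRecDepth 100000

namespace CfsgLib.G2Four.Hall

open Cfsg.Lie CfsgLib.Chev MulAction

/-- The label of a coset. -/
def top (i : ℕ) : ℕ := getW 4 topLab i

/-- One step in a tree of an orbit of a two-point stabilizer. -/
def pChk (sW : List (List ℕ)) (pL j i g : ℕ) : Bool :=
  Nat.blt g sW.length && Nat.beq (apN (sW.getD g []) i) j && Nat.beq (getW 4 pL j) (getW 4 pL i)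

/-- The conditions on the data of a suborbit. -/
def subOk (s r m : ℕ) (oT : List (ℕ × ℕ × ℕ)) (sW : List (List ℕ)) (pR : List ℕ) (pT : List (ℕ × ℕ × ℕ))
    (pL : ℕ) : Bool :=
  (Nat.blt r 416 && Nat.beq (top r) s) &&
    (goB oChk oT [r] && coversB (fun x => Nat.beq (top x) s) 416 oT [r]) &&
    sW.all (fun w => w.all (fun k => Nat.blt k 4) && Nat.beq (apN w r) r) &&
    (List.range pR.length).all (fun k => Nat.blt (pR.getD k 0) 416 && Nat.beq (getW 4 pL (pR.getD k 0)) (k + 1)) &&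
    (goB (pChk sW pL) pT pR && coversB (fun x => Nat.beq (top x) s && !Nat.beq x r) 416 pT pR) &&
    (Nat.beq (getW 4 pL r) 0 && (List.range 416).all fun x =>
      !Nat.beq (top x) s || Nat.beq x r || (Nat.blt 0 (getW 4 pL x) && Nat.ble (getW 4 pL x) m))

theorem top_ok : ((List.range 416).all fun i => (List.range 4).all (fun g => Nat.beq (top (sgm g i)) (top i)) &&
    Nat.ble (top i) 2 && (Nat.beq i 0 == Nat.beq (top i) 0)) = true := by decide +kernel

theorem subA_ok : subOk 1 rootA 5 orbTreeA stabWordsA partRootsA partTreeA partLabA = true := by decide +kernel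

theorem subB_ok : subOk 2 rootB 2 orbTreeB stabWordsB partRootsB partTreeB partLabB = true := by decide +kernel

theorem top_smul {x : LQ} (hx : x ∈ HQ) :
    ∀ i : Fin 416, ∃ j : Fin 416, x • cs i = cs j ∧ top j.val = top i.val := by
  have hx2 : ∀ i : Fin 416, (∃ j : Fin 416, x • cs i = cs j ∧ top j.val = top i.val) ∧
      ∃ j : Fin 416, x⁻¹ • cs i = cs j ∧ top j.val = top i.val := by
    induction hx using Subgroup.closure_induction with
    | mem y hy =>
      obtain ⟨k, rfl⟩ := hy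
      intro i
      obtain ⟨h, he⟩ := gen_smul k.castSucc i
      have ht := List.all_eq_true.1 top_ok i.val (List.mem_range.2 i.2)
      simp only [Bool.and_eq_true, List.all_eq_true, List.mem_range] at ht
      have : ∃ j : Fin 416, gen k.castSucc • cs i = cs j ∧ top j.val = top i.val :=
        ⟨⟨_, h⟩, he, Nat.eq_of_beq_eq_true (ht.1.1 k.val k.2)⟩
      refine ⟨this, ?_⟩
      rwa [inv_eq_of_mul_eq_one_right (gen_sq k)]
    | one => exact fun i => ⟨⟨i, one_smul _ _, rfl⟩, ⟨i, by rw [inv_one, one_smul], rfl⟩⟩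
    | mul a b _ _ ha hb =>
      intro i
      obtain ⟨j, hj, tj⟩ := (hb i).1
      obtain ⟨k, hk, tk⟩ := (ha j).1
      obtain ⟨j', hj', tj'⟩ := (ha i).2
      obtain ⟨k', hk', tk'⟩ := (hb j').2
      exact ⟨⟨k, by rw [mul_smul, hj, hk], tk.trans tj⟩, ⟨k', by rw [_root_.mul_inv_rev, mul_smul, hj', hk'], tk'.trans tj'⟩⟩
    | inv a _ ha => exact fun i => ⟨(ha i).2, by rw [inv_inv]; exact (ha i).1⟩
  exact fun i => (hx2 i).1

/-- The number of a coset. -/
noncomputable def num (q : LQ ⧸ HQ) : ℕ := (eC.symm q).val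

theorem num_cs (i : Fin 416) : num (cs i) = i.val := by rw [num, ← eC_apply, Equiv.symm_apply_apply]

theorem cs_num (q : LQ ⧸ HQ) : cs ⟨num q, (eC.symm q).2⟩ = q := eC.apply_symm_apply q

theorem coatom_stab {s r m : ℕ} {oT : List (ℕ × ℕ × ℕ)} {sW : List (List ℕ)} {pR : List ℕ}
    {pT : List (ℕ × ℕ × ℕ)} {pL : ℕ} (hok : subOk s r m oT sW pR pT pL = true) (c : ℕ → ℕ) {N : ℕ}
    (hN : ((Finset.univ : Finset (Fin 416)).filter fun i => top i.val = s).card = N) (hN1 : 1 < N)
    (hc : ∀ k ≤ m, ((Finset.univ : Finset (Fin 416)).filter fun i => top i.val = s ∧ getW 4 pL i.val = k).card = c k)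
    (hsum : ∀ T ∈ (Finset.range (m + 1)).powerset, 0 ∈ T → (∑ k ∈ T, c k) ∣ N → T = {0} ∨ (∑ k ∈ T, c k) = N) :
    IsCoatom (stabilizer ↥HQ (csN r)) ∧ ∀ i : Fin 416, top i.val = s → ∃ x : ↥HQ, x • csN r = cs i := by
  classical
  simp only [subOk, Bool.and_eq_true] at hok
  obtain ⟨⟨⟨⟨⟨⟨hr, hrs⟩, hoT⟩, hsW⟩, hpR⟩, hpT⟩, hr0, hlab⟩ := hok
  have hr' : r < 416 := Nat.le_of_ble_eq_true hr
  have horb : ∀ i : Fin 416, top i.val = s → ∃ x : ↥HQ, x • csN r = cs i := fun i hi =>
    orbit_tree hr' (by rw [Bool.and_eq_true]; exact hoT) (by simp [hi])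
  refine ⟨?_, horb⟩
  have hcr : csN r = cs ⟨r, hr'⟩ := by rw [csN, dif_pos hr']
  set O : Finset (LQ ⧸ HQ) := ((Finset.univ : Finset (Fin 416)).filter fun i => top i.val = s).map eC.toEmbedding
    with hOdef
  have memO : ∀ q, q ∈ O ↔ ∃ i : Fin 416, top i.val = s ∧ cs i = q := fun q => by
    simp only [hOdef, Finset.mem_map_equiv, Finset.mem_filter, Finset.mem_univ, true_and]
    exact ⟨fun h => ⟨eC.symm q, h, eC.apply_symm_apply q⟩,
      fun ⟨i, hi, e⟩ => by rw [← e, ← eC_apply, Equiv.symm_apply_apply]; exact hi⟩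
  refine isCoatom_stabilizer (csN r) O (fun q => ⟨fun h => ?_, fun h => ?_⟩) (fun q => getW 4 pL (num q))
    (fun q hq => ?_) m (fun q hq => ?_) c (fun k hk => ?_) (fun q hq q' hq' he => ?_) ?_ ?_
  · obtain ⟨i, hi, rfl⟩ := (memO q).1 h
    exact horb i hi
  · obtain ⟨x, rfl⟩ := h
    obtain ⟨j, hj, ht⟩ := top_smul x.2 ⟨r, hr'⟩
    exact (memO _).2 ⟨j, ht.trans (Nat.eq_of_beq_eq_true hrs), by rw [hcr]; exact hj.symm⟩
  · obtain ⟨i, hi, rfl⟩ := (memO q).1 hq
    rw [num_cs, hcr]
    constructor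
    · intro h
      have := List.all_eq_true.1 hlab i.val (List.mem_range.2 i.2)
      rw [h, hi] at this
      simp at this
      exact congrArg cs (Fin.ext this)
    · intro h
      rw [Equiv.injective eC (show eC i = eC ⟨r, hr'⟩ from h)]
      exact Nat.eq_of_beq_eq_true hr0
  · obtain ⟨i, hi, rfl⟩ := (memO q).1 hq
    rw [num_cs]
    have := List.all_eq_true.1 hlab i.val (List.mem_range.2 i.2)
    simp [hi] at this
    rcases this with h | h
    · rw [h, Nat.eq_of_beq_eq_true hr0]; exact Nat.zero_le m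
    · exact h.2
  · rw [← hc k hk, hOdef, Finset.filter_map, Finset.card_map, Finset.filter_filter]
    congr 1
    refine Finset.filter_congr fun i _ => ?_
    simp only [Function.comp_apply, Equiv.coe_toEmbedding, eC_apply, num_cs]
  · have key : ∀ i : Fin 416, top i.val = s → i.val ≠ r → ∃ g ∈ stabilizer ↥HQ (csN r),
        g • csN (pR.getD (getW 4 pL i.val - 1) 0) = cs i := by
      intro i hi hne
      have hb : Nat.beq i.val r = false := Bool.eq_false_iff.2 fun h => hne (Nat.eq_of_beq_eq_true h)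
      have := reach_all (P := fun i => i < 416 ∧ ∃ g ∈ stabilizer ↥HQ (csN r),
        g • csN (pR.getD (getW 4 pL i - 1) 0) = csN i) (fun j i g hchk hi => ?_)
        (by rw [Bool.and_eq_true]; exact hpT) (fun x hx => ?_) i.2 (by simp [hi, hb])
      · rw [csN_val] at this; exact this.2
      · simp only [pChk, Bool.and_eq_true] at hchk
        obtain ⟨⟨hg, hj⟩, hl⟩ := hchk
        obtain ⟨hi', y, hy, hyi⟩ := hi
        have hw := List.all_eq_true.1 hsW (sW.getD g [])
          (List.getD_eq_getElem sW [] (Nat.le_of_ble_eq_true hg) ▸ List.getElem_mem _)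
        rw [Bool.and_eq_true] at hw
        obtain ⟨z, hz⟩ := word_smulN hw.1
        have hzs : z ∈ stabilizer ↥HQ (csN r) := by
          rw [mem_stabilizer_iff, (hz r hr').2, Nat.eq_of_beq_eq_true hw.2]
        refine ⟨Nat.eq_of_beq_eq_true hj ▸ (hz i hi').1, z * y, mul_mem hzs hy, ?_⟩
        rw [Nat.eq_of_beq_eq_true hl, mul_smul, hyi, (hz i hi').2, Nat.eq_of_beq_eq_true hj]
      · obtain ⟨k, hk, rfl⟩ : ∃ k < pR.length, pR.getD k 0 = x := by
          obtain ⟨k, hk, rfl⟩ := List.getElem_of_mem hx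
          exact ⟨k, hk, List.getD_eq_getElem _ _ hk⟩
        have hh := List.all_eq_true.1 hpR k (List.mem_range.2 hk)
        rw [Bool.and_eq_true] at hh
        refine ⟨Nat.le_of_ble_eq_true hh.1, 1, one_mem _, ?_⟩
        rw [Nat.eq_of_beq_eq_true hh.2, Nat.add_sub_cancel, one_smul]
    obtain ⟨i, hi, rfl⟩ := (memO q).1 hq
    obtain ⟨i', hi', rfl⟩ := (memO q').1 hq'
    rw [num_cs, num_cs] at he
    have hzero : ∀ i : Fin 416, top i.val = s → (getW 4 pL i.val = 0 ↔ i.val = r) := fun i hi => by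
      refine ⟨fun h => ?_, fun h => h ▸ Nat.eq_of_beq_eq_true hr0⟩
      have := List.all_eq_true.1 hlab i.val (List.mem_range.2 i.2)
      rw [h, hi] at this
      simpa using this
    by_cases hir : i.val = r
    · have := (hzero i' hi').1 (he.symm.trans ((hzero i hi).2 hir))
      exact ⟨1, one_mem _, by rw [one_smul, Fin.ext (hir.trans this.symm)]⟩
    · have hir' : i'.val ≠ r := fun h => hir ((hzero i hi).1 (he.trans ((hzero i' hi').2 h)))
      obtain ⟨g, hg, hgi⟩ := key i hi hir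
      obtain ⟨g', hg', hgi'⟩ := key i' hi' hir'
      refine ⟨g' * g⁻¹, mul_mem hg' (inv_mem hg), ?_⟩
      rw [← hgi, mul_smul, inv_smul_smul, he, hgi']
  · rw [hOdef, Finset.card_map, hN]; exact hN1
  · intro T hT h0
    rw [hOdef, Finset.card_map, hN]
    exact hsum T hT h0

theorem coatomA : IsCoatom (stabilizer ↥HQ (csN rootA)) ∧
    ∀ i : Fin 416, top i.val = 1 → ∃ x : ↥HQ, x • csN rootA = cs i :=
  coatom_stab subA_ok (fun k => [1, 10, 160, 80, 32, 32].getD k 0) (N := 315) (by decide +kernel) (by norm_num)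
    (by decide +kernel) (by decide +kernel)

theorem coatomB : IsCoatom (stabilizer ↥HQ (csN rootB)) ∧
    ∀ i : Fin 416, top i.val = 2 → ∃ x : ↥HQ, x • csN rootB = cs i :=
  coatom_stab subB_ok (fun k => [1, 63, 36].getD k 0) (N := 100) (by decide +kernel) (by norm_num)
    (by decide +kernel) (by decide +kernel)

theorem top_eq_zero (i : Fin 416) : top i.val = 0 ↔ i = 0 := by
  have h := List.all_eq_true.1 top_ok i.val (List.mem_range.2 i.2)
  simp only [Bool.and_eq_true, beq_iff_eq] at h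
  constructor
  · intro e
    have h2 := h.2
    rw [e] at h2
    exact Fin.ext (Nat.eq_of_beq_eq_true h2)
  · intro e
    subst e
    decide +kernel

theorem top_le (i : Fin 416) : top i.val ≤ 2 := by
  have h := List.all_eq_true.1 top_ok i.val (List.mem_range.2 i.2)
  simp only [Bool.and_eq_true] at h
  exact Nat.le_of_ble_eq_true h.1.2

theorem exists_root {i : Fin 416} (hi : i ≠ 0) :
    ∃ a : LQ ⧸ HQ, IsCoatom (stabilizer ↥HQ a) ∧ ∃ x : ↥HQ, x • a = cs i := by
  have h0 : top i.val ≠ 0 := fun h => hi ((top_eq_zero i).1 h)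
  have h2 := top_le i
  rcases (show top i.val = 1 ∨ top i.val = 2 by omega) with h | h
  · exact ⟨_, coatomA.1, coatomA.2 i h⟩
  · exact ⟨_, coatomB.1, coatomB.2 i h⟩

theorem isCoatom_HQ : IsCoatom HQ := by
  classical
  rw [← MulAction.stabilizer_quotient HQ]
  have hcard : ((Finset.univ : Finset (Fin 416)).map eC.toEmbedding).card = 416 := by rw [Finset.card_map, Finset.card_univ, Fintype.card_fin]
  refine isCoatom_stabilizer ((1 : LQ) : LQ ⧸ HQ) ((Finset.univ : Finset (Fin 416)).map eC.toEmbedding)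
    (fun q => ⟨fun _ => MulAction.exists_smul_eq LQ _ q, fun _ => by simp⟩) (fun q => top (num q)) (fun q _ => ?_) 2
    (fun q _ => top_le _) (fun k => [1, 315, 100].getD k 0) (fun k hk => ?_) (fun q _ q' _ he => ?_)
    (by rw [hcard]; norm_num) ?_
  · show top (eC.symm q).val = 0 ↔ _
    rw [top_eq_zero, Equiv.symm_apply_eq, eC_apply, cs_zero]
  · rw [Finset.filter_map, Finset.card_map]
    have key : ∀ k ≤ 2, ((Finset.univ : Finset (Fin 416)).filter fun i => top i.val = k).card =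
        [1, 315, 100].getD k 0 := by decide +kernel
    rw [← key k hk]
    congr 1
    refine Finset.filter_congr fun i _ => ?_
    simp only [Function.comp_apply, Equiv.coe_toEmbedding, eC_apply, num_cs]
  · rw [← cs_num q, ← cs_num q']
    set i : Fin 416 := ⟨num q, (eC.symm q).2⟩
    set j : Fin 416 := ⟨num q', (eC.symm q').2⟩
    have he' : top i.val = top j.val := he
    suffices ∃ g ∈ HQ, g • cs i = cs j by
      obtain ⟨g, hg, e⟩ := this
      exact ⟨g, by rw [MulAction.stabilizer_quotient]; exact hg, e⟩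
    by_cases h : i = 0
    · have hj : j = 0 := (top_eq_zero j).1 (he'.symm.trans ((top_eq_zero i).2 h))
      exact ⟨1, one_mem _, by rw [h, hj, one_smul]⟩
    · have h0 : top i.val ≠ 0 := fun e => h ((top_eq_zero i).1 e)
      have h2 := top_le i
      rcases (show top i.val = 1 ∨ top i.val = 2 by omega) with e | e
      · obtain ⟨x, hx⟩ := coatomA.2 i e
        obtain ⟨y, hy⟩ := coatomA.2 j (he'.symm.trans e)
        exact ⟨(y * x⁻¹ : ↥HQ), (y * x⁻¹).2, by
          show (y * x⁻¹) • cs i = cs j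
          rw [← hx, ← hy]
          exact (mul_smul y x⁻¹ _).trans (congrArg (y • ·) (inv_smul_smul x _))⟩
      · obtain ⟨x, hx⟩ := coatomB.2 i e
        obtain ⟨y, hy⟩ := coatomB.2 j (he'.symm.trans e)
        exact ⟨(y * x⁻¹ : ↥HQ), (y * x⁻¹).2, by
          show (y * x⁻¹) • cs i = cs j
          rw [← hx, ← hy]
          exact (mul_smul y x⁻¹ _).trans (congrArg (y • ·) (inv_smul_smul x _))⟩
  · rw [hcard]
    decide +kernel

theorem inter_coatom {x : LQ} (hx : x ∉ HQ) :
    IsCoatom ((HQ ⊓ HQ.map (MulAut.conj x).toMonoidHom).subgroupOf HQ) := by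
  have hst : (HQ ⊓ HQ.map (MulAut.conj x).toMonoidHom).subgroupOf HQ = stabilizer ↥HQ (x : LQ ⧸ HQ) := by
    ext g
    rw [Subgroup.mem_subgroupOf, Subgroup.mem_inf, mem_stabilizer_iff]
    show _ ↔ (g : LQ) • (x : LQ ⧸ HQ) = _
    rw [MulAction.Quotient.smul_coe, smul_eq_mul, eq_comm, QuotientGroup.eq, Subgroup.mem_map_equiv,
      MulAut.conj_symm_apply, ← mul_assoc]
    exact ⟨fun h => h.2, fun h => ⟨g.2, h⟩⟩
  rw [hst]
  obtain ⟨i, hi⟩ := cs_surjective (x : LQ ⧸ HQ)
  have hi0 : i ≠ 0 := fun h => hx (by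
    rw [h, cs_zero, QuotientGroup.eq, inv_one, one_mul] at hi
    exact hi)
  obtain ⟨a, ha, g, hg⟩ := exists_root hi0
  rw [← hi, ← hg, stabilizer_smul_eq_stabilizer_map_conj]
  exact ((MulAut.conj g).mapSubgroup.isCoatom_iff _).2 ha

/-- The statement over any field with four elements. -/
theorem extremely_primitive {F : Type*} [Field F] [Fintype F] (hF : Fintype.card F = 4) :
    ∃ H : Subgroup (chevG2.group F), IsCoatom H ∧ Cfsg.Spor.IsoJ2 H ∧
      ∀ x : chevG2.group F, x ∉ H →
        IsCoatom ((H ⊓ H.map (MulAut.conj x).toMonoidHom).subgroupOf H) := by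
  set σ : F ≃+* Q := FiniteField.ringEquivOfCardEq (K := F) (K' := Q) (hF.trans Q.card_eq.symm)
  set e : ↥(chevG2.group F) ≃* LQ :=
    ((chevG2.group F).equivMapOfInjective _ (glMap_injective chevG2 (σ : F →+* Q))).trans
      (MulEquiv.subgroupCongr (map_group_eq chevG2 (σ : F →+* Q) σ.surjective))
  set H : Subgroup (chevG2.group F) := HQ.map e.symm.toMonoidHom with hH
  have eH : ↥HQ ≃* ↥H := HQ.equivMapOfInjective _ e.symm.injective
  refine ⟨H, (e.symm.mapSubgroup.isCoatom_iff _).2 isCoatom_HQ, ⟨eH.symm.trans isoJ2_HQ.some⟩, fun x hx => ?_⟩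
  have hx' : e x ∉ HQ := fun h => hx ⟨e x, h, e.symm_apply_apply x⟩
  set d : ↥HQ ≃* ↥H := HQ.equivMapOfInjective _ e.symm.injective
  have key := (d.mapSubgroup.isCoatom_iff _).2 (inter_coatom hx')
  convert key using 1
  ext g
  show _ ↔ g ∈ Subgroup.map d.toMonoidHom _
  have hg : e.symm ((d.symm g : ↥HQ) : LQ) = (g : chevG2.group F) := congrArg Subtype.val (d.apply_symm_apply g)
  have hmem : ∀ y, y ∈ H ↔ e y ∈ HQ := fun y => by
    rw [hH, Subgroup.mem_map_equiv, MulEquiv.symm_symm]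
  simp only [Subgroup.mem_map_equiv, Subgroup.mem_subgroupOf, Subgroup.mem_inf, MulAut.conj_symm_apply, hmem]
  rw [← hg]
  simp only [map_mul, map_inv, e.apply_symm_apply]

end CfsgLib.G2Four.Hall
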