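import Cfsg.Agent.G2Four.Hall.ConjCheck
import Cfsg.Agent.J2.Chain

/-!
# A subgroup of `G₂(4)` isomorphic to `J₂`
-/

set_option autoImplicit false
set_option maxRecDepth 100000

namespace CfsgLib.G2Four.Hall

open Cfsg.Lie CfsgLib.Chev Matrix

/-- The group. -/
abbrev LQ : Type := ↥(chevG2.group Q)

/-- The root element with index `n`. -/
noncomputable def rootLetter (n : ℕ) : LQ := sysG2.xg (n / 3) ([Q.e, Q.a, Q.b].getD (n % 3) Q.z)

/-- The five generators. -/
noncomputable def gen (k : Fin 5) : LQ := ((genWords.getD k.val []).map rootLetter).prod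

theorem gen_mat (k : Fin 5) : Mat (gen k) (gM k.val) := by
  have hlt : ∀ n ∈ genWords.getD k.val [], n < 36 := fun n hn =>
    Nat.le_of_ble_eq_true (List.all_eq_true.1 (List.all_eq_true.1 genWords_lt k.val (List.mem_range.2 k.2)) n hn)
  have he : gen k = elt ((genWords.getD k.val []).map fun n => (n / 3, [Q.e, Q.a, Q.b].getD (n % 3) Q.z)) := by
    rw [gen, elt, List.map_map]; rfl
  rw [Mat, he, psi_elt, List.map_map, genWords_ok k]
  · rfl
  · intro p hp
    obtain ⟨n, hn, rfl⟩ := List.mem_map.1 hp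
    have := hlt n hn
    show n / 3 < 12
    omega

/-- The subgroup generated by the first four generators. -/
noncomputable def HQ : Subgroup LQ := Subgroup.closure (Set.range fun k : Fin 4 => gen k.castSucc)

theorem gen_mem (k : Fin 4) : gen k.castSucc ∈ HQ := Subgroup.subset_closure ⟨k, rfl⟩

theorem gen_sq (k : Fin 4) : gen k.castSucc * gen k.castSucc = 1 := by
  refine ((gen_mat _).mul (gen_mat _)).eq Mat.one ?_
  have h := gen_ok
  simp only [Bool.and_eq_true] at h
  fin_cases k <;> simp [h]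

theorem exists_invol (i : ℕ) (hi : i < 315) : ∃ g ∈ HQ, Mat g (sM i) := by
  refine reach_all (P := fun i => ∃ g ∈ HQ, Mat g (sM i)) ?_ sTree_ok ?_ hi rfl
  · rintro j i k hc ⟨g, hg, hm⟩
    simp only [sChk, Bool.and_eq_true] at hc
    set kk : Fin 4 := ⟨k, Nat.le_of_ble_eq_true hc.1⟩
    refine ⟨gen kk.castSucc * g * gen kk.castSucc, mul_mem (mul_mem (gen_mem _) hg) (gen_mem _), ?_⟩
    rw [← eq_of_eqM hc.2]
    exact ((gen_mat _).mul hm).mul (gen_mat _)
  · intro x hx
    obtain ⟨k, hk, rfl⟩ := List.mem_map.1 hx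
    rw [List.mem_range] at hk
    refine ⟨gen (⟨k, hk⟩ : Fin 4).castSucc, gen_mem _, ?_⟩
    have h := gen_ok
    simp only [Bool.and_eq_true] at h
    have : sM (CfsgLib.J2.gidx k) = gM k := by
      interval_cases k <;> exact eq_of_eqM (by simp [h])
    rw [this]
    exact gen_mat _

/-- The involutions. -/
noncomputable def sG (i : Fin 315) : LQ := (exists_invol i.val i.2).choose

theorem sG_mem (i : Fin 315) : sG i ∈ HQ := (exists_invol i.val i.2).choose_spec.1

theorem sG_mat (i : Fin 315) : Mat (sG i) (sM i.val) := (exists_invol i.val i.2).choose_spec.2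

theorem sG_gidx (k : Fin 4) : sG ⟨CfsgLib.J2.gidx k, CfsgLib.J2.genI_lt k.2⟩ = gen k.castSucc := by
  refine (sG_mat _).eq (gen_mat _) ?_
  have h := gen_ok
  simp only [Bool.and_eq_true] at h
  fin_cases k <;> simp [h]

theorem inj_of_distinctB {α : Type*} (f : α → ℕ) : ∀ {L : List α}, distinctB (L.map f) = true →
    ∀ a ∈ L, ∀ b ∈ L, f a = f b → a = b
  | [], _, a, ha, _, _, _ => by simp at ha
  | x :: xs, h, a, ha, b, hb, e => by
    simp only [List.map_cons, distinctB, Bool.and_eq_true, List.all_eq_true] at h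
    have hne : ∀ y ∈ xs, f x ≠ f y := fun y hy he => by
      have := h.1 (f y) (List.mem_map.2 ⟨y, hy, rfl⟩)
      simp [he] at this
    rcases List.mem_cons.1 ha with ea | ha <;> rcases List.mem_cons.1 hb with eb | hb
    · rw [ea, eb]
    · exact absurd (ea ▸ e) (hne b hb)
    · exact absurd (eb ▸ e).symm (hne a ha)
    · exact inj_of_distinctB f h.2 a ha b hb e

theorem sG_injective : Function.Injective sG := by
  intro i j e
  have h : toM (sM i.val) = toM (sM j.val) := by rw [← sG_mat i, ← sG_mat j, e]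
  have he : ∀ i : Fin 315, getW 72 sTab i.val = enc (toM (sM i.val)) := fun i =>
    (Nat.eq_of_beq_eq_true (List.all_eq_true.1 enc_ok i.val (List.mem_range.2 i.2))).symm
  exact Fin.ext (inj_of_distinctB (fun i => getW 72 sTab i) sCodes_ok i.val (List.mem_range.2 i.2) j.val
    (List.mem_range.2 j.2) (by rw [he, he, h]))

theorem conj_gen (k : Fin 4) (i : Fin 315) :
    gen k.castSucc * sG i * (gen k.castSucc)⁻¹ = sG ⟨CfsgLib.J2.genT k i, CfsgLib.J2.genT_lt k.2 i.2⟩ := by
  rw [inv_eq_of_mul_eq_one_right (gen_sq k)]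
  refine (((gen_mat _).mul (sG_mat i)).mul (gen_mat _)).eq (sG_mat _) ?_
  have hi := i.2
  have h := List.all_eq_true.1 (conj_ok k.2 (show i.val / 63 < 5 by omega)) (i.val % 63)
    (List.mem_range.2 (Nat.mod_lt _ (by omega)))
  rw [Nat.div_add_mod] at h
  exact h

/-- `g` permutes the involutions by `σ`. -/
def ConjBy (g : LQ) (σ : Equiv.Perm (Fin 315)) : Prop := ∀ i, g * sG i * g⁻¹ = sG (σ i)

theorem exists_conjBy {g : LQ} (hg : g ∈ HQ) : ∃ σ ∈ CfsgLib.J2.G315, ConjBy g σ := by
  induction hg using Subgroup.closure_induction with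
  | mem y hy =>
    obtain ⟨k, rfl⟩ := hy
    refine ⟨CfsgLib.J2.phi (CfsgLib.J2.genJ k), ⟨_, rfl⟩, fun i => ?_⟩
    rw [CfsgLib.J2.phi_genJ]
    exact conj_gen k i
  | one => exact ⟨1, one_mem _, fun i => by simp⟩
  | mul a b _ _ ha hb =>
    obtain ⟨σ, hσ, ha⟩ := ha
    obtain ⟨τ, hτ, hb⟩ := hb
    refine ⟨σ * τ, mul_mem hσ hτ, fun i => ?_⟩
    rw [Equiv.Perm.mul_apply, ← ha, ← hb, _root_.mul_inv_rev]
    simp only [mul_assoc]
  | inv a _ ha =>
    obtain ⟨σ, hσ, ha⟩ := ha
    refine ⟨σ⁻¹, inv_mem hσ, fun i => ?_⟩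
    have := ha (σ⁻¹ i)
    rw [show σ (σ⁻¹ i) = i from σ.apply_symm_apply i] at this
    rw [← this, inv_inv]
    group

theorem conjBy_unique {g : LQ} {σ τ : Equiv.Perm (Fin 315)} (h1 : ConjBy g σ) (h2 : ConjBy g τ) : σ = τ :=
  Equiv.ext fun i => sG_injective ((h1 i).symm.trans (h2 i))

/-- The action on the involutions. -/
noncomputable def act315 : ↥HQ →* ↥CfsgLib.J2.G315 :=
  MonoidHom.mk' (fun g => ⟨(exists_conjBy g.2).choose, (exists_conjBy g.2).choose_spec.1⟩) fun g h => by
    apply Subtype.ext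
    refine conjBy_unique (exists_conjBy (g * h).2).choose_spec.2 fun i => ?_
    simp only [Subgroup.coe_mul, Equiv.Perm.mul_apply]
    rw [← (exists_conjBy g.2).choose_spec.2, ← (exists_conjBy h.2).choose_spec.2, _root_.mul_inv_rev]
    simp only [mul_assoc]

theorem act315_spec (g : ↥HQ) : ConjBy g.val (act315 g).val := (exists_conjBy g.2).choose_spec.2

theorem act315_surjective : Function.Surjective act315 := by
  rintro ⟨σ, hσ⟩
  suffices σ ∈ act315.range.map CfsgLib.J2.G315.subtype by
    obtain ⟨x, ⟨g, rfl⟩, he⟩ := this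
    exact ⟨g, Subtype.ext he⟩
  rw [CfsgLib.J2.G315_eq] at hσ
  refine (Subgroup.closure_le _).2 ?_ hσ
  rintro _ ⟨k, rfl⟩
  refine ⟨act315 ⟨_, gen_mem k⟩, ⟨_, rfl⟩, ?_⟩
  refine conjBy_unique (act315_spec ⟨_, gen_mem k⟩) fun i => ?_
  rw [CfsgLib.J2.phi_genJ]
  exact conj_gen k i

theorem act315_injective : Function.Injective act315 := by
  refine (injective_iff_map_eq_one act315).2 fun g hg => ?_
  have hfix : ∀ i, g.val * sG i * g.val⁻¹ = sG i := fun i => by
    have := act315_spec g i
    rw [hg] at this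
    exact this
  set M : M6 := (psi g.val : M6) with hM
  have hcomm : ∀ k : Fin 4, Commute M (toM (gM k.val)) := fun k => by
    have h := hfix ⟨CfsgLib.J2.gidx k, CfsgLib.J2.genI_lt k.2⟩
    rw [sG_gidx, mul_inv_eq_iff_eq_mul] at h
    have := congrArg (fun x => ((psi x : GL (Fin 6) Q) : M6)) h
    simp only [map_mul, Units.val_mul] at this
    rw [show (psi (gen k.castSucc) : M6) = toM (gM k.val) from gen_mat _] at this
    exact this
  have hb : ∀ x, x < 72 → Commute M (toM (bM x)) := fun x hx => by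
    refine reach_all (P := fun x => Commute M (toM (bM x))) ?_ bTree_ok ?_ hx rfl
    · intro j i k hc hi
      simp only [bChk, Bool.and_eq_true] at hc
      rw [← eq_of_eqM hc.2, toM_mm]
      exact (hcomm ⟨k, Nat.le_of_ble_eq_true hc.1⟩).mul_right hi
    · intro x hx
      have h := gen_ok
      simp only [Bool.and_eq_true] at h
      rw [List.mem_singleton.1 hx, show bM 0 = one6 from eq_of_eqM (by simp [h]), toM_one]
      exact Commute.one_right M
  have hsum : ∀ m, Commute M (toM (maskSum m)) := fun m => by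
    have key : ∀ L : List ℕ, (∀ x ∈ L, x < 72) → ∀ acc, Commute M (toM acc) →
        Commute M (toM (L.foldl (fun acc x => if m.testBit x then addR acc (bM x) else acc) acc)) := by
      intro L
      induction L with
      | nil => exact fun _ _ h => h
      | cons a L ih =>
        intro hL acc ha
        rw [List.foldl_cons]
        refine ih (fun x hx => hL x (List.mem_cons_of_mem _ hx)) _ ?_
        split
        · rw [toM_addR]; exact ha.add_right (hb a (hL a (List.mem_cons_self ..)))
        · exact ha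
    refine key _ (fun x hx => List.mem_range.1 hx) _ ?_
    rw [show toM [0, 0, 0, 0, 0, 0] = (0 : M6) by decide +kernel]
    exact Commute.zero_right M
  have hunit : ∀ i j : Fin 6, toM (unitR i.val j.val) = Matrix.single i j (1 : Q) := by decide +kernel
  have hs : ∀ i j : Fin 6, Commute M (Matrix.single i j (1 : Q)) := fun i j => by
    rw [← hunit, ← eq_of_eqM (List.all_eq_true.1 (List.all_eq_true.1 units_ok i.val (List.mem_range.2 i.2))
      j.val (List.mem_range.2 j.2))]
    exact hsum _
  have hall : ∀ X : M6, Commute M X := fun X => by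
    rw [matrix_eq_sum_single X]
    refine Commute.sum_right _ _ _ fun i _ => Commute.sum_right _ _ _ fun j _ => ?_
    rw [show Matrix.single i j (X i j) = X i j • Matrix.single i j (1 : Q) by
      rw [Matrix.smul_single, smul_eq_mul, mul_one]]
    exact (hs i j).smul_right _
  have h1 : psi g.val = 1 := by
    refine pair_one_unique ⟨?_, fun v => ?_⟩
    · obtain ⟨P, hP⟩ := exists_pair g.val
      rw [psi_eq hP]; exact hP.1
    · rw [Units.val_one, one_mulVec]; exact hall _
  exact Subtype.ext (psi_injective (h1.trans (map_one psi).symm))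

theorem isoJ2_HQ : Cfsg.Spor.IsoJ2 ↥HQ :=
  ⟨(MulEquiv.ofBijective act315 ⟨act315_injective, act315_surjective⟩).trans CfsgLib.J2.j2Equiv.symm⟩

theorem card_HQ : Nat.card ↥HQ = 604800 := by
  rw [Nat.card_congr isoJ2_HQ.some.toEquiv, CfsgLib.J2.card_J2]

theorem index_HQ : HQ.index = 416 := by
  have h := Subgroup.card_mul_index HQ
  rw [card_HQ, card_L] at h
  omega

end CfsgLib.G2Four.Hall
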