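import Cfsg.Agent.G2Four.Graph

/-!
# Packed `6 × 6` matrices over the field with four elements

A row is a number below `4096`, two bits per digit; a matrix is the list of its rows, packed into 72 bits.
-/

set_option autoImplicit false
set_option maxRecDepth 100000

namespace CfsgLib.G2Four.Hall

open Matrix

/-- A digit from its two bits. -/
def ofB : Bool → Bool → Q
  | false, false => .z
  | true, false => .e
  | false, true => .a
  | true, true => .b

/-- Digit `j` of a row. -/
def dig (r j : ℕ) : Q := ofB (r.testBit (2 * j)) (r.testBit (2 * j + 1))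

/-- A row times `a`. -/
def sa (b : ℕ) : ℕ := ((b >>> 1) &&& 1365) ||| (((b &&& 1365) ^^^ ((b >>> 1) &&& 1365)) <<< 1)

/-- Digit `k` of `r` times the row `b`. -/
def sc (r k b : ℕ) : ℕ :=
  match r.testBit (2 * k), r.testBit (2 * k + 1) with
  | false, false => 0
  | true, false => b
  | false, true => sa b
  | true, true => sa (sa b)

/-- A row times a matrix. -/
def rowMul (r : ℕ) (B : List ℕ) : ℕ :=
  sc r 0 (B.getD 0 0) ^^^ (sc r 1 (B.getD 1 0) ^^^ (sc r 2 (B.getD 2 0) ^^^
    (sc r 3 (B.getD 3 0) ^^^ (sc r 4 (B.getD 4 0) ^^^ sc r 5 (B.getD 5 0)))))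

/-- The product. -/
def mm (A B : List ℕ) : List ℕ := A.map fun r => rowMul r B

/-- The sum. -/
def addR (A B : List ℕ) : List ℕ := (List.range 6).map fun k => A.getD k 0 ^^^ B.getD k 0

/-- The identity. -/
def one6 : List ℕ := [1, 4, 16, 64, 256, 1024]

/-- Field `i` of width `w` in a packed table. -/
def getW (w t i : ℕ) : ℕ := (t >>> (w * i)) &&& (2 ^ w - 1)

/-- The rows of a packed matrix. -/
def unp (n : ℕ) : List ℕ := [getW 12 n 0, getW 12 n 1, getW 12 n 2, getW 12 n 3, getW 12 n 4, getW 12 n 5]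

/-- The matrix. -/
def toM (A : List ℕ) : M6 := Matrix.of fun i j => dig (A.getD i.val 0) j.val

/-- Equality of rows. -/
def eqM : List ℕ → List ℕ → Bool
  | [], [] => true
  | x :: xs, y :: ys => Nat.beq x y && eqM xs ys
  | _, _ => false

theorem eq_of_eqM : ∀ {A B : List ℕ}, eqM A B = true → A = B
  | [], [], _ => rfl
  | [], _ :: _, h => by simp [eqM] at h
  | _ :: _, [], h => by simp [eqM] at h
  | x :: xs, y :: ys, h => by
    simp only [eqM, Bool.and_eq_true] at h
    rw [Nat.eq_of_beq_eq_true h.1, eq_of_eqM h.2]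

theorem dig_zero (j : ℕ) : dig 0 j = 0 := by simp [dig, ofB]; rfl

theorem dig_xor (a b j : ℕ) : dig (a ^^^ b) j = dig a j + dig b j := by
  simp only [dig, Nat.testBit_xor]
  cases a.testBit (2 * j) <;> cases a.testBit (2 * j + 1) <;> cases b.testBit (2 * j) <;>
    cases b.testBit (2 * j + 1) <;> decide

theorem bit_mask : ∀ j : Fin 6, (1365 : ℕ).testBit (2 * j.val) = true ∧
    (1365 : ℕ).testBit (2 * j.val + 1) = false := by decide +kernel

theorem dig_sa (b : ℕ) (j : Fin 6) : dig (sa b) j.val = Q.a * dig b j.val := by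
  have h0 : (sa b).testBit (2 * j.val) = b.testBit (2 * j.val + 1) := by
    have : ∀ k < 12, 0 < k → k % 2 = 0 → (1365 : ℕ).testBit (k - 1) = false := by decide +kernel
    rcases Nat.eq_zero_or_pos (2 * j.val) with e | e
    · simp [sa, Nat.testBit_shiftLeft, e, Nat.add_comm]
    · simp [sa, Nat.testBit_shiftLeft, (bit_mask j).1, this _ (by omega) e (by omega), Nat.add_comm 1]
  have h1 : (sa b).testBit (2 * j.val + 1) = (b.testBit (2 * j.val) ^^ b.testBit (2 * j.val + 1)) := by
    simp [sa, Nat.testBit_shiftLeft, (bit_mask j).1, (bit_mask j).2, Nat.add_comm 1]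
  simp only [dig, h0, h1]
  cases b.testBit (2 * j.val) <;> cases b.testBit (2 * j.val + 1) <;> decide

theorem dig_sc (r k b : ℕ) (j : Fin 6) : dig (sc r k b) j.val = dig r k * dig b j.val := by
  unfold sc
  conv_rhs => unfold dig
  cases r.testBit (2 * k) <;> cases r.testBit (2 * k + 1)
  · show dig 0 j.val = _
    rw [dig_zero]; exact (zero_mul _).symm
  · show dig (sa b) j.val = _
    rw [dig_sa]; rfl
  · show dig b j.val = _
    exact (one_mul _).symm
  · show dig (sa (sa b)) j.val = _
    rw [dig_sa, dig_sa, ← mul_assoc]; rfl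

theorem toM_mm (A B : List ℕ) : toM (mm A B) = toM A * toM B := by
  ext i j
  have h : (mm A B).getD i.val 0 = rowMul (A.getD i.val 0) B := by
    rcases lt_or_ge i.val A.length with h | h
    · rw [List.getD_eq_getElem _ _ (by simpa [mm] using h), List.getD_eq_getElem _ _ h]; simp [mm]
    · rw [List.getD_eq_default _ _ (by simpa [mm] using h), List.getD_eq_default _ _ h]
      simp [rowMul, sc]
  rw [Matrix.mul_apply, Fin.sum_univ_six]
  show dig ((mm A B).getD i.val 0) j.val = _
  rw [h, rowMul]
  simp only [dig_xor, dig_sc, add_assoc]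
  rfl

theorem toM_one : toM one6 = 1 := by decide +kernel

theorem toM_addR (A B : List ℕ) : toM (addR A B) = toM A + toM B := by
  ext i j
  have : (addR A B).getD i.val 0 = A.getD i.val 0 ^^^ B.getD i.val 0 := by
    rw [List.getD_eq_getElem _ _ (by simp [addR, i.2])]; simp [addR]
  show dig ((addR A B).getD i.val 0) j.val = _
  rw [this, dig_xor]
  rfl

/-- The element `g` acts by the packed matrix `A`. -/
def Mat (g : ↥(Cfsg.Lie.chevG2.group Q)) (A : List ℕ) : Prop := (psi g : M6) = toM A

theorem Mat.mul {g h : ↥(Cfsg.Lie.chevG2.group Q)} {A B : List ℕ} (hg : Mat g A) (hh : Mat h B) :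
    Mat (g * h) (mm A B) := by
  rw [Mat, map_mul, Units.val_mul, hg, hh, toM_mm]

theorem Mat.one : Mat 1 one6 := by rw [Mat, map_one, Units.val_one, toM_one]

theorem Mat.eq {g h : ↥(Cfsg.Lie.chevG2.group Q)} {A B : List ℕ} (hg : Mat g A) (hh : Mat h B)
    (e : eqM A B = true) : g = h :=
  psi_injective (Units.ext (by rw [hg, hh, eq_of_eqM e]))

/-- Closing a set of numbers under certified steps. -/
def goB (chk : ℕ → ℕ → ℕ → Bool) : List (ℕ × ℕ × ℕ) → List ℕ → Bool
  | [], _ => true
  | (j, i, k) :: L, known => known.any (Nat.beq i) && chk j i k && goB chk L (j :: known)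

theorem reach {P : ℕ → Prop} {chk : ℕ → ℕ → ℕ → Bool} (step : ∀ j i k, chk j i k = true → P i → P j) :
    ∀ (L : List (ℕ × ℕ × ℕ)) (known : List ℕ), goB chk L known = true → (∀ x ∈ known, P x) →
      ∀ x ∈ known ++ L.map (fun p => p.1), P x := by
  intro L
  induction L with
  | nil => intro known _ hk x hx; exact hk x (by simpa using hx)
  | cons p L ih =>
    obtain ⟨j, i, k⟩ := p
    intro known h hk x hx
    simp only [goB, Bool.and_eq_true, List.any_eq_true] at h
    obtain ⟨⟨⟨y, hy, hyi⟩, hc⟩, hr⟩ := h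
    obtain rfl := Nat.eq_of_beq_eq_true hyi
    refine ih (j :: known) hr (fun z hz => ?_) x ?_
    · rcases List.mem_cons.1 hz with rfl | hz
      · exact step _ _ _ hc (hk _ hy)
      · exact hk z hz
    · simp only [List.map_cons, List.mem_append, List.mem_cons] at hx ⊢
      tauto

/-- All numbers below `n` with the property occur among the reached ones. -/
def coversB (p : ℕ → Bool) (n : ℕ) (L : List (ℕ × ℕ × ℕ)) (known : List ℕ) : Bool :=
  (List.range n).all fun x => !p x || (known ++ L.map fun q => q.1).any (Nat.beq x)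

theorem reach_all {P : ℕ → Prop} {chk : ℕ → ℕ → ℕ → Bool} {L : List (ℕ × ℕ × ℕ)} {known : List ℕ} {p : ℕ → Bool}
    {n : ℕ} (step : ∀ j i k, chk j i k = true → P i → P j) (hok : (goB chk L known && coversB p n L known) = true)
    (hk : ∀ x ∈ known, P x) {x : ℕ} (hx : x < n) (hp : p x = true) : P x := by
  rw [Bool.and_eq_true] at hok
  have := List.all_eq_true.1 hok.2 x (List.mem_range.2 hx)
  rw [hp, Bool.not_true, Bool.false_or, List.any_eq_true] at this
  obtain ⟨y, hy, hxy⟩ := this
  rw [Nat.eq_of_beq_eq_true hxy]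
  exact reach step L known hok.1 hk y hy

end CfsgLib.G2Four.Hall
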