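import Cfsg.Agent.G2Four.Hall.Pack
import Cfsg.Agent.G2Four.Hall.Data
import Cfsg.Agent.J2.Reflect

/-!
# The checks on the tables
-/

set_option autoImplicit false
set_option maxRecDepth 100000

namespace CfsgLib.G2Four.Hall

/-- Generator `k`. -/
def gM (k : ℕ) : List ℕ := unp (genMats.getD k 0)

/-- Involution `i`. -/
def sM (i : ℕ) : List ℕ := unp (getW 72 sTab i)

/-- Representative `i`. -/
def tM (i : ℕ) : List ℕ := unp (getW 72 tTab i)

/-- Basis element `i`. -/
def bM (i : ℕ) : List ℕ := unp (getW 72 bTab i)

/-- The image of coset `i` under generator `g`. -/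
def sgm (g i : ℕ) : ℕ := getW 9 (sigTabs.getD g 0) i

/-- The remainder as a list of involutions. -/
def hws (g i : ℕ) : List ℕ :=
  (List.range (getW 40 (hwTabs.getD g 0) i &&& 15)).map fun k => getW 9 (getW 40 (hwTabs.getD g 0) i >>> 4) k

/-- A product of involutions, packed. -/
def hProd (w : List ℕ) : List ℕ := w.foldl (fun acc x => mm acc (sM x)) one6

/-- A product of generators, packed. -/
def gProd (w : List ℕ) : List ℕ := w.foldl (fun acc x => mm acc (gM x)) one6

/-- One step in the tree of involutions. -/
def sChk (j i k : ℕ) : Bool := Nat.blt k 4 && eqM (mm (mm (gM k) (sM i)) (gM k)) (sM j)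

/-- One step in the tree of representatives. -/
def tChk (j i g : ℕ) : Bool := Nat.blt g 5 && eqM (mm (gM g) (tM i)) (tM j)

/-- One step in the tree of the basis. -/
def bChk (j i k : ℕ) : Bool := Nat.blt k 4 && eqM (mm (gM k) (bM i)) (bM j)

/-- Conjugation by generator `k` follows the table. -/
def conjBlk (k c : ℕ) : Bool :=
  (List.range 63).all fun x => eqM (mm (mm (gM k) (sM (63 * c + x))) (gM k)) (sM (CfsgLib.J2.genT k (63 * c + x)))

/-- The coset table of generator `g`. -/
def edgeBlk (g c : ℕ) : Bool :=
  (List.range 52).all fun x =>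
    Nat.blt (sgm g (52 * c + x)) 416 && (hws g (52 * c + x)).all (fun y => Nat.blt y 315) &&
      eqM (mm (gM g) (tM (52 * c + x))) (mm (tM (sgm g (52 * c + x))) (hProd (hws g (52 * c + x))))

/-- The sum of the basis elements selected by a mask. -/
def maskSum (m : ℕ) : List ℕ :=
  (List.range 72).foldl (fun acc x => if m.testBit x then addR acc (bM x) else acc) [0, 0, 0, 0, 0, 0]

/-- A matrix unit, packed. -/
def unitR (i j : ℕ) : List ℕ := (List.range 6).map fun k => if k == i then 1 <<< (2 * j) else 0

/-- All numbers differ. -/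
def distinctB : List ℕ → Bool
  | [] => true
  | x :: xs => xs.all (fun y => !Nat.beq x y) && distinctB xs

/-- The code of a matrix. -/
def enc (M : M6) : ℕ :=
  ((List.finRange 6).map fun i => ((List.finRange 6).map fun j =>
    (match M i j with | .z => 0 | .e => 1 | .a => 2 | .b => 3) <<< (12 * i.val + 2 * j.val)).sum).sum

theorem gen_ok : (eqM (mm (gM 0) (gM 0)) one6 && eqM (mm (gM 1) (gM 1)) one6 && eqM (mm (gM 2) (gM 2)) one6 &&
    eqM (mm (gM 3) (gM 3)) one6 && eqM (sM (CfsgLib.J2.gidx 0)) (gM 0) && eqM (sM (CfsgLib.J2.gidx 1)) (gM 1) &&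
    eqM (sM (CfsgLib.J2.gidx 2)) (gM 2) && eqM (sM (CfsgLib.J2.gidx 3)) (gM 3) && eqM (tM 0) one6 &&
    eqM (bM 0) one6 && eqM (mm (gM 4) (gM 4)) one6) = true := by decide +kernel

theorem sTree_ok : (goB sChk sTree ((List.range 4).map CfsgLib.J2.gidx) &&
    coversB (fun _ => true) 315 sTree ((List.range 4).map CfsgLib.J2.gidx)) = true := by decide +kernel

theorem tTree_ok : (goB tChk tTree [0] && coversB (fun _ => true) 416 tTree [0]) = true := by decide +kernel

theorem bTree_ok : (goB bChk bTree [0] && coversB (fun _ => true) 72 bTree [0]) = true := by decide +kernel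

theorem units_ok : ((List.range 6).all fun i => (List.range 6).all fun j =>
    eqM (maskSum (unitMasks.getD (6 * i + j) 0)) (unitR i j)) = true := by decide +kernel

theorem genWords_ok : ∀ k : Fin 5, toM (gM k.val) =
    ((genWords.getD k.val []).map fun n => mr (n / 3) ([Q.e, Q.a, Q.b].getD (n % 3) Q.z)).prod := by decide +kernel

theorem genWords_lt : (List.range 5).all (fun k => (genWords.getD k []).all fun n => Nat.blt n 36) = true := by
  decide +kernel

/-- The word for a root element. -/
def rootWord (r : ℕ) : Q → List ℕ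
  | .z => []
  | .e => rootWords.getD (3 * r) []
  | .a => rootWords.getD (3 * r + 1) []
  | .b => rootWords.getD (3 * r + 2) []

theorem rootWords_ok : ∀ r : Fin 12, ∀ t : Q, mr r.val t = toM (gProd (rootWord r.val t)) ∧
    (rootWord r.val t).all (fun k => Nat.blt k 5) = true := by decide +kernel

theorem sCodes_ok : distinctB ((List.range 315).map fun i => getW 72 sTab i) = true := by decide +kernel

theorem enc_ok : ((List.range 315).all fun i => Nat.beq (enc (toM (sM i))) (getW 72 sTab i)) = true := by
  decide +kernel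

end CfsgLib.G2Four.Hall
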